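import Cfsg.Agent.Lib.Helper15.CTE.Defs
import Cfsg.Agent.Lib.Helper16.DadeEXT

set_option autoImplicit false

namespace Cfsg.Agent.Lib.Helper15.CTE

open Cfsg Cfsg.Agent.Lib.Helper15.Dade

universe u

/-- [THSC] -/
theorem th0_mul {H : Type*} [Group H] (p : ℕ) [NeZero p] (χ : H → ℂ) (ζ : P p → H × P p)
    (e : P p → ℂ) (h : ∀ i, Sc χ (ζ i).1 (e i)) (β : P p → H × P p) :
    th0 p χ (ζ * β) =
      ((∏ i, e i) * ZMod.stdAddChar (∑ i, lg i * lg (ζ i).2)) * th0 p χ β := by
  unfold th0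
  have h1 : ∏ i, χ ((ζ * β) i).1 = (∏ i, e i) * ∏ i, χ (β i).1 := by
    rw [← Finset.prod_mul_distrib]
    apply Finset.prod_congr rfl
    intro i _
    exact h i _
  have h2 : ∑ i, lg i * lg ((ζ * β) i).2 = ∑ i, lg i * lg (ζ i).2 + ∑ i, lg i * lg (β i).2 := by
    rw [← Finset.sum_add_distrib]
    apply Finset.sum_congr rfl
    intro i _
    simp [mul_add]
  rw [h1, h2, AddChar.map_add_eq_mul]
  ring

/-- [CONJ] -/
theorem th0_conj {H : Type*} [Group H] (p : ℕ) [NeZero p] (χ : H → ℂ)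
    (hχ : ∀ a b, χ (a⁻¹ * b * a) = χ b) (w : RegularWreathProduct (H × P p) (P p))
    (β : P p → H × P p) :
    th0 p χ (w⁻¹ * (⟨β, 1⟩ : RegularWreathProduct (H × P p) (P p)) * w).left =
      th0 p χ β * ZMod.stdAddChar (-(lg w.right) * ∑ j, lg (β j).2) := by
  unfold th0
  have hl := Cfsg.Agent.Lib.Helper16.Dade.conj_left β w
  have h1 : ∏ i, χ ((w⁻¹ * (⟨β, 1⟩ : RegularWreathProduct (H × P p) (P p)) * w).left i).1
      = ∏ i, χ (β i).1 := by
    rw [← Fintype.prod_equiv (Equiv.mulLeft w.right) (fun i => χ (β (w.right * i)).1)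
      (fun i => χ (β i).1) (fun i => rfl)]
    apply Finset.prod_congr rfl
    intro i _
    rw [hl i]
    simp only [Prod.fst_mul, Prod.fst_inv]
    exact hχ _ _
  have h2 : ∑ i, lg i * lg ((w⁻¹ * (⟨β, 1⟩ : RegularWreathProduct (H × P p) (P p)) * w).left i).2
      = ∑ i, lg i * lg (β i).2 + -(lg w.right) * ∑ j, lg (β j).2 := by
    rw [Finset.mul_sum, ← Finset.sum_add_distrib]
    rw [← Fintype.sum_equiv (Equiv.mulLeft w.right)
      (fun i => lg (w.right * i) * lg (β (w.right * i)).2 + -lg w.right * lg (β (w.right * i)).2)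
      (fun i => lg i * lg (β i).2 + -lg w.right * lg (β i).2) (fun i => rfl)]
    apply Finset.sum_congr rfl
    intro i _
    rw [hl i]
    simp only [Prod.snd_mul, Prod.snd_inv, lg_mul, lg_inv]
    ring
  rw [h1, h2, AddChar.map_add_eq_mul]
  ring

/-- [SCIND] -/
theorem sc_indFun {W : Type*} [Group W] [Fintype W] (B : Subgroup W) [B.Normal] (θ : ↥B → ℂ) (z : W)
    (hz : z ∈ B) (ε : ℂ)
    (h : ∀ (x : W) (b c : ↥B), (c : W) = x⁻¹ * z * x * b → θ c = ε * θ b) :
    Sc (indFun B θ) z ε := by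
  intro y
  unfold indFun
  rw [mul_left_comm ε, Finset.mul_sum (a := ε)]
  congr 1
  apply Finset.sum_congr rfl
  intro x _
  have hzx : x⁻¹ * z * x ∈ B := by
    have := (inferInstance : B.Normal).conj_mem z hz x⁻¹
    simpa using this
  have he : x⁻¹ * (z * y) * x = (x⁻¹ * z * x) * (x⁻¹ * y * x) := by group
  by_cases hy : x⁻¹ * y * x ∈ B
  · have hm : x⁻¹ * (z * y) * x ∈ B := by rw [he]; exact B.mul_mem hzx hy
    have e1 : extendByZero B θ (x⁻¹ * (z * y) * x) = θ ⟨_, hm⟩ :=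
      Function.Injective.extend_apply Subtype.val_injective θ 0 ⟨_, hm⟩
    have e2 : extendByZero B θ (x⁻¹ * y * x) = θ ⟨_, hy⟩ :=
      Function.Injective.extend_apply Subtype.val_injective θ 0 ⟨_, hy⟩
    rw [e1, e2]
    exact h x ⟨_, hy⟩ ⟨_, hm⟩ he
  · have hm : x⁻¹ * (z * y) * x ∉ B := by
      rw [he]
      intro hc
      exact hy ((B.mul_mem_cancel_left hzx).1 hc)
    have e1 : extendByZero B θ (x⁻¹ * (z * y) * x) = 0 := by
      apply Function.extend_apply'
      rintro ⟨b, hb⟩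
      exact hm (hb ▸ b.2)
    have e2 : extendByZero B θ (x⁻¹ * y * x) = 0 := by
      apply Function.extend_apply'
      rintro ⟨b, hb⟩
      exact hy (hb ▸ b.2)
    rw [e1, e2, mul_zero]

/-- [PIK] -/
theorem pi'_surjective {H Q : Type*} [Group H] [Group Q] (p : ℕ) [NeZero p] (π : H →* Q)
    (hπ : Function.Surjective π) : Function.Surjective (pi' p π) := by
  classical
  rintro ⟨⟨g, r⟩, x⟩
  choose h hh using fun i => hπ (g i)
  refine ⟨⟨fun i => (h i, if i = 1 then x else 1), r⟩, ?_⟩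
  apply Prod.ext
  · apply RegularWreathProduct.ext
    · funext i
      exact hh i
    · rfl
  · change ∏ i, (if i = 1 then x else 1) = x
    rw [Finset.prod_ite_eq']
    simp

theorem mem_ker_pi' {H Q : Type*} [Group H] [Group Q] (p : ℕ) [NeZero p] (π : H →* Q)
    (w : RegularWreathProduct (H × P p) (P p)) :
    w ∈ (pi' p π).ker ↔ w.right = 1 ∧ (∀ i, (w.left i).1 ∈ π.ker) ∧ ∑ i, lg (w.left i).2 = 0 := by
  rw [MonoidHom.mem_ker]
  have hs : ∑ i, lg (w.left i).2 = lg (∏ i, (w.left i).2) := by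
    unfold lg
    rw [toAdd_prod]
  constructor
  · intro h
    have h1 := congrArg Prod.fst h
    have h2 := congrArg Prod.snd h
    have h3 : (fun i => π (w.left i).1) = 1 := congrArg RegularWreathProduct.left h1
    have h4 : w.right = 1 := congrArg RegularWreathProduct.right h1
    refine ⟨h4, fun i => congrFun h3 i, ?_⟩
    rw [hs]
    have h5 : ∏ i, (w.left i).2 = 1 := h2
    rw [h5]
    rfl
  · rintro ⟨h1, h2, h3⟩
    apply Prod.ext
    · apply RegularWreathProduct.ext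
      · funext i
        exact h2 i
      · exact h1
    · change ∏ i, (w.left i).2 = 1
      rw [hs] at h3
      exact h3

end Cfsg.Agent.Lib.Helper15.CTE
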