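import Cfsg.Agent.Lib.Helper15.CTE.A
import Cfsg.Agent.Lib.Helper15.Dade.Main
import Cfsg.Agent.Lib.Helper82.Basic
import Cfsg.Agent.Lib.Helper83.Basic
import Cfsg.Agent.Lib.Helper19.GramRigid

set_option autoImplicit false

namespace Cfsg.Agent.Lib.Helper15.CTE

open Cfsg Cfsg.Agent.Lib.Helper15.Dade

universe u

theorem sc_conj {H : Type*} [Group H] {χ : H → ℂ} (hχ : ∀ a b, χ (a⁻¹ * b * a) = χ b) {z : H} {ε : ℂ}
    (h : Sc χ z ε) (a : H) : Sc χ (a⁻¹ * z * a) ε := by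
  intro y
  have h1 : a⁻¹ * z * a * y = a⁻¹ * (z * (a * y * a⁻¹)) * a := by group
  have h2 : χ (a * y * a⁻¹) = χ y := by
    have := hχ a⁻¹ y
    simpa using this
  rw [h1, hχ, h, h2]

theorem class_of_irr {H : Type*} [Group H] {χ : H → ℂ} (hχ : IsIrrCharacter H χ) :
    ∀ a b, χ (a⁻¹ * b * a) = χ b := by
  intro a b
  have := Cfsg.Agent.Lib.Helper82.isChar_conj_eq (Cfsg.Agent.Lib.Helper82.isIrr_isChar hχ) b a⁻¹
  simpa using this

/-- [SCPS] -/
theorem sc_ps {H : Type*} [Group H] [Finite H] (p : ℕ) [NeZero p]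
    [Fintype (RegularWreathProduct (H × P p) (P p))] (χ : H → ℂ) (hχ : IsIrrCharacter H χ)
    (ζ : P p → H × P p) (e : P p → ℂ) (h : ∀ i, Sc χ (ζ i).1 (e i))
    (h0 : ∑ i, lg (ζ i).2 = 0) :
    Sc (ps p χ) ⟨ζ, 1⟩ ((∏ i, e i) * ZMod.stdAddChar (∑ i, lg i * lg (ζ i).2)) := by
  have hcl := class_of_irr hχ
  apply sc_indFun (base (H × P p) (P p)) (th p χ) ⟨ζ, 1⟩ (mem_base.2 rfl)
  intro x b c hc
  unfold th
  set ζ' := (x⁻¹ * (⟨ζ, 1⟩ : RegularWreathProduct (H × P p) (P p)) * x).left with hζ'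
  have hl := Cfsg.Agent.Lib.Helper16.Dade.conj_left ζ x
  have hleft : c.1.left = ζ' * b.1.left := by
    rw [hc, RegularWreathProduct.mul_left]
    congr 1
    funext i
    simp
  rw [hleft]
  have hsc : ∀ i, Sc χ (ζ' i).1 (e (x.right * i)) := by
    intro i
    rw [hζ', hl i]
    simp only [Prod.fst_mul, Prod.fst_inv]
    exact sc_conj hcl (h _) _
  rw [th0_mul p χ ζ' (fun i => e (x.right * i)) hsc]
  congr 1
  have h1 : ∏ i, e (x.right * i) = ∏ i, e i :=
    Fintype.prod_equiv (Equiv.mulLeft x.right) _ _ (fun i => rfl)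
  have h2 : ∑ i, lg i * lg (ζ' i).2 = ∑ i, lg i * lg (ζ i).2 := by
    have h3 : ∑ i, lg i * lg (ζ i).2 = ∑ i, lg i * lg (ζ i).2 + -(lg x.right) * ∑ j, lg (ζ j).2 := by
      rw [h0]; ring
    rw [h3, Finset.mul_sum, ← Finset.sum_add_distrib]
    rw [← Fintype.sum_equiv (Equiv.mulLeft x.right)
      (fun i => lg (x.right * i) * lg (ζ (x.right * i)).2 + -lg x.right * lg (ζ (x.right * i)).2)
      (fun i => lg i * lg (ζ i).2 + -lg x.right * lg (ζ i).2) (fun i => rfl)]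
    apply Finset.sum_congr rfl
    intro i _
    rw [hζ', hl i]
    simp only [Prod.snd_mul, Prod.snd_inv, lg_mul, lg_inv]
    ring
  rw [h1, h2]

theorem card_P' (p : ℕ) [NeZero p] : Nat.card (P p) = p := by
  rw [Nat.card_eq_fintype_card, Fintype.card_multiplicative, ZMod.card]

/-- [DEG] -/
theorem ps_one {H : Type*} [Group H] [Finite H] (p : ℕ) [NeZero p]
    [Fintype (RegularWreathProduct (H × P p) (P p))] (χ : H → ℂ) :
    ps p χ 1 = (p : ℂ) * (χ 1) ^ p := by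
  unfold ps
  rw [Cfsg.Agent.Lib.Helper19.indFun_apply_one, index_base, card_P']
  congr 1
  unfold th th0
  simp [ZMod.card]

/-- [ROOT] -/
theorem lift_root {H : Type*} [Group H] [Finite H] (p : ℕ) [Fact p.Prime]
    [Fintype (RegularWreathProduct (H × P p) (P p))] (χ : H → ℂ) (hχ : IsIrrCharacter H χ)
    (z₀ : H) (ε₀ : ℂ) (h : Sc χ z₀ ε₀) :
    ∃ z : RegularWreathProduct (H × P p) (P p), z.right = 1 ∧
      (∀ i, (z.left i).1 = 1 ∨ (z.left i).1 = z₀) ∧ (∀ i, (z.left i).2 = 1) ∧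
      Sc (ps p χ) z ε₀ := by
  classical
  let ζ : P p → H × P p := fun i => if i = 1 then (z₀, 1) else 1
  let e : P p → ℂ := fun i => if i = 1 then ε₀ else 1
  have hsc : ∀ i, Sc χ (ζ i).1 (e i) := by
    intro i
    by_cases hi : i = 1
    · simp only [ζ, e, if_pos hi]; exact h
    · simp only [ζ, e, if_neg hi]
      intro y
      simp
  have h2 : ∀ i, (ζ i).2 = 1 := by
    intro i
    by_cases hi : i = 1
    · simp only [ζ, if_pos hi]
    · simp only [ζ, if_neg hi]; rfl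
  have h0 : ∑ i, lg (ζ i).2 = 0 := by
    apply Finset.sum_eq_zero
    intro i _
    rw [h2 i]; rfl
  have h3 := sc_ps p χ hχ ζ e hsc h0
  have h4 : (∏ i, e i) * ZMod.stdAddChar (∑ i, lg i * lg (ζ i).2) = ε₀ := by
    have h5 : ∑ i, lg i * lg (ζ i).2 = 0 := by
      apply Finset.sum_eq_zero
      intro i _
      rw [h2 i]; simp
    rw [h5, AddChar.map_zero_eq_one, mul_one]
    simp only [e]
    rw [Finset.prod_ite_eq']
    simp
  rw [h4] at h3
  refine ⟨⟨ζ, 1⟩, rfl, ?_, h2, h3⟩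
  intro i
  by_cases hi : i = 1
  · right; simp only [ζ, if_pos hi]
  · left; simp only [ζ, if_neg hi]; rfl

theorem exists_root {H : Type*} [Group H] [Finite H] (p : ℕ) [Fact p.Prime]
    [Fintype (RegularWreathProduct (H × P p) (P p))] (χ : H → ℂ) (hχ : IsIrrCharacter H χ) :
    ∃ z : RegularWreathProduct (H × P p) (P p), z.right = 1 ∧ (∀ i, (z.left i).1 = 1) ∧
      ∑ i, lg (z.left i).2 = 0 ∧ ∃ ε : ℂ, ε ≠ 1 ∧ ε ^ p = 1 ∧ Sc (ps p χ) z ε := by
  classical
  have hp : (Fact.out : p.Prime).one_lt = (Fact.out : p.Prime).one_lt := rfl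
  have : Fact (1 < p) := ⟨(Fact.out : p.Prime).one_lt⟩
  -- second coordinates: `a i = [lg i = 1] - [lg i = 0]`
  let a : P p → ZMod p := fun i => (if lg i = 1 then 1 else 0) - (if lg i = 0 then 1 else 0)
  let ζ : P p → H × P p := fun i => (1, Multiplicative.ofAdd (a i))
  have hsc : ∀ i, Sc χ (ζ i).1 (1 : ℂ) := by
    intro i y
    simp [ζ]
  have hlg : ∀ i, lg (ζ i).2 = a i := fun i => rfl
  have hsum : ∀ f : ZMod p → ZMod p, ∑ i : P p, f (lg i) = ∑ j : ZMod p, f j := by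
    intro f
    exact Fintype.sum_equiv Multiplicative.toAdd _ _ (fun i => rfl)
  have h0 : ∑ i, lg (ζ i).2 = 0 := by
    simp only [hlg, a]
    rw [hsum (fun j => (if j = 1 then 1 else 0) - (if j = 0 then 1 else 0)), Finset.sum_sub_distrib,
      Finset.sum_ite_eq', Finset.sum_ite_eq']
    simp
  have h1 : ∑ i, lg i * lg (ζ i).2 = 1 := by
    simp only [hlg, a]
    rw [hsum (fun j => j * ((if j = 1 then 1 else 0) - (if j = 0 then 1 else 0)))]
    simp only [mul_sub, mul_ite, mul_one, mul_zero]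
    rw [Finset.sum_sub_distrib, Finset.sum_ite_eq', Finset.sum_ite_eq']
    simp
  have h3 := sc_ps p χ hχ ζ (fun _ => 1) hsc h0
  rw [h1, Finset.prod_const_one, one_mul] at h3
  refine ⟨⟨ζ, 1⟩, rfl, fun i => rfl, h0, ZMod.stdAddChar (1 : ZMod p), ?_, ?_, h3⟩
  · intro hc
    rw [← AddChar.map_zero_eq_one (ZMod.stdAddChar (N := p))] at hc
    exact one_ne_zero (ZMod.injective_stdAddChar hc)
  · rw [← AddChar.map_nsmul_eq_pow]
    simp

/-- [BASE] -/
theorem ct_of_subsingleton (Q : Type u) [Group Q] [Subsingleton Q] : CT Q 1 := by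
  refine ⟨Q, inferInstance, inferInstance, MonoidHom.id Q, fun _ => 1, Function.surjective_id,
    Cfsg.Agent.Lib.Helper83.isIrr_trivial, ?_, ?_, ?_⟩
  · rw [Nat.card_of_subsingleton (1 : Q)]
    simp
  · intro z _
    exact ⟨1, by simp, fun h => by simp⟩
  · intro q hq h
    exact absurd (Nat.dvd_one.1 h) hq.ne_one

end Cfsg.Agent.Lib.Helper15.CTE
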