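import Cfsg.Agent.Lib.Helper15.CTE.B
import Cfsg.Agent.Lib.Helper16.DadePI
import Cfsg.Agent.Lib.Helper31.TypeP

set_option autoImplicit false

namespace Cfsg.Agent.Lib.Helper15.CTE

open Cfsg Cfsg.Agent.Lib.Helper15.Dade Cfsg.Agent.Lib.Helper16.Dade

universe u

theorem isIrr_pi_aux (D : Type*) [Group D] [Finite D] (ι : Type*) [Finite ι] :
    ∀ (_ : Fintype ι) (φ : ι → D → ℂ), (∀ i, IsIrrCharacter D (φ i)) →
      IsIrrCharacter (ι → D) (fun x => ∏ i, φ i (x i)) := by
  refine Finite.induction_empty_option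
    (P := fun ι => ∀ (_ : Fintype ι) (φ : ι → D → ℂ), (∀ i, IsIrrCharacter D (φ i)) →
      IsIrrCharacter (ι → D) (fun x => ∏ i, φ i (x i))) ?_ ?_ ?_ ι
  · intro α β e ih instβ φ hφ
    have instα : Fintype α := Fintype.ofEquiv β e.symm
    have h1 := ih instα (fun a => φ (e a)) (fun a => hφ _)
    have h2 := Cfsg.Agent.Lib.Helper5.isIrrCharacter_comp_equiv (reidx D e).symm h1
    convert h2 using 1
    funext y
    show ∏ j, φ j (y j) = ∏ a, φ (e a) (y (e a))
    exact (Equiv.prod_comp e (fun j => φ j (y j))).symm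
  · intro inst φ _
    have h := Cfsg.Agent.Lib.Helper83.isIrr_trivial (G := PEmpty → D)
    convert h using 1
    funext x
    simp
  · intro α instα ih inst φ hφ
    obtain rfl : inst = instFintypeOption := Subsingleton.elim _ _
    have h1 := ih instα (fun a => φ (some a)) (fun a => hφ _)
    have h2 : IsIrrCharacter (D × (α → D))
        (fun x => φ none x.1 * ∏ a, φ (some a) (x.2 a)) :=
      (Cfsg.Agent.S0188.result _).2 ⟨φ none, _, hφ none, h1, rfl⟩
    have h3 := Cfsg.Agent.Lib.Helper5.isIrrCharacter_comp_equiv (optSplit α D).symm h2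
    convert h3 using 1
    funext x
    show ∏ o, φ o (x o) = φ none (x none) * ∏ a, φ (some a) (x (some a))
    rw [Fintype.prod_option]

/-- [IRRPI] -/
theorem isIrr_pi {ι : Type*} [Fintype ι] {D : Type*} [Group D] [Finite D] (φ : ι → D → ℂ)
    (hφ : ∀ i, IsIrrCharacter D (φ i)) : IsIrrCharacter (ι → D) (fun x => ∏ i, φ i (x i)) :=
  isIrr_pi_aux D ι _ φ hφ

/-- the linear character `x ↦ stdAddChar (a * lg x)` of `P p` -/
noncomputable def nu (p : ℕ) [NeZero p] (a : ZMod p) : P p →* ℂˣ where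
  toFun x := Units.mk0 (ZMod.stdAddChar (a * lg x)) (AddChar.val_isUnit _ _).ne_zero
  map_one' := by
    ext
    simp
  map_mul' x y := by
    ext
    simp [mul_add, AddChar.map_add_eq_mul]

theorem std_sum (p : ℕ) [NeZero p] {ι : Type*} (s : Finset ι) (f : ι → ZMod p) :
    (ZMod.stdAddChar (∑ i ∈ s, f i) : ℂ) = ∏ i ∈ s, ZMod.stdAddChar (f i) := by
  classical
  induction s using Finset.induction_on with
  | empty => simp
  | insert a s ha ih => rw [Finset.sum_insert ha, Finset.prod_insert ha, AddChar.map_add_eq_mul, ih]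

/-- [THIRR] -/
theorem isIrr_th {H : Type*} [Group H] [Finite H] (p : ℕ) [NeZero p] (χ : H → ℂ)
    (hχ : IsIrrCharacter H χ) : IsIrrCharacter ↥(base (H × P p) (P p)) (th p χ) := by
  have h1 : ∀ i : P p, IsIrrCharacter (H × P p)
      (fun x => χ x.1 * ((nu p (lg i) x.2 : ℂˣ) : ℂ)) := fun i =>
    (Cfsg.Agent.S0188.result _).2 ⟨χ, _, hχ, Cfsg.Agent.Lib.Helper83.isIrr_of_hom (nu p (lg i)), rfl⟩
  have h2 := isIrr_pi _ h1
  have h3 := Cfsg.Agent.Lib.Helper5.isIrrCharacter_comp_equiv (baseEquiv (H × P p) (P p)).symm h2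
  convert h3 using 1
  funext b
  show th0 p χ b.1.left = ∏ i, (χ (b.1.left i).1 * ((nu p (lg i) (b.1.left i).2 : ℂˣ) : ℂ))
  unfold th0
  rw [Finset.prod_mul_distrib, std_sum]
  rfl

/-- [PSIRR] -/
theorem isIrr_ps {H : Type*} [Group H] [Finite H] (p : ℕ) [Fact p.Prime]
    [Fintype (RegularWreathProduct (H × P p) (P p))] (χ : H → ℂ) (hχ : IsIrrCharacter H χ) :
    IsIrrCharacter (RegularWreathProduct (H × P p) (P p)) (ps p χ) := by
  classical
  have hth := isIrr_th p χ hχ
  apply Cfsg.Agent.Lib.Helper31.indFun_irr_of_inertia_eq (base (H × P p) (P p)) hth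
  apply le_antisymm
  · intro w hw
    by_contra hwb
    have hw' := Subgroup.inv_mem _ hw
    rw [Cfsg.Agent.Lib.Helper5.mem_inertia'] at hw'
    let β : P p → H × P p := fun i => if i = 1 then (1, Multiplicative.ofAdd 1) else 1
    have h1 := hw' ⟨⟨β, 1⟩, rfl⟩
    have h2 : th0 p χ (w⁻¹ * (⟨β, 1⟩ : RegularWreathProduct (H × P p) (P p)) * w⁻¹⁻¹).left
        = th0 p χ β := h1
    rw [inv_inv, th0_conj p χ (class_of_irr hχ)] at h2
    have hsum : ∑ j, lg (β j).2 = 1 := by
      have : ∀ j, lg (β j).2 = if j = 1 then 1 else 0 := by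
        intro j
        by_cases hj : j = 1
        · simp only [β, if_pos hj]; rfl
        · simp only [β, if_neg hj]; rfl
      rw [Finset.sum_congr rfl (fun j _ => this j), Finset.sum_ite_eq']
      simp
    have hne : th0 p χ β ≠ 0 := by
      unfold th0
      apply mul_ne_zero
      · apply Finset.prod_ne_zero_iff.2
        intro i _
        have : (β i).1 = 1 := by
          by_cases hi : i = 1
          · simp only [β, if_pos hi]
          · simp only [β, if_neg hi]; rfl
        rw [this]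
        exact Cfsg.Agent.Lib.Helper82.isIrr_one_ne_zero hχ
      · exact (AddChar.val_isUnit _ _).ne_zero
    rw [hsum, mul_one] at h2
    have h3 : (ZMod.stdAddChar (-(lg w.right)) : ℂ) = 1 := by
      have := mul_left_cancel₀ hne (h2.trans (mul_one _).symm)
      exact this
    rw [← AddChar.map_zero_eq_one (ZMod.stdAddChar (N := p))] at h3
    have h4 := ZMod.injective_stdAddChar h3
    apply hwb
    rw [mem_base]
    have h5 : lg w.right = 0 := by simpa using h4
    exact h5
  · exact Cfsg.Agent.Lib.Helper5.le_inertia _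
      (Cfsg.Agent.Lib.Helper82.isChar_isClassFunction (Cfsg.Agent.Lib.Helper82.isIrr_isChar hth))

end Cfsg.Agent.Lib.Helper15.CTE
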