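import Cfsg.Agent.Lib.Helper15.CTE.B
import Cfsg.Agent.Lib.Helper82.Central
import Cfsg.Agent.Lib.Helper82.CharKer

set_option autoImplicit false

namespace Cfsg.Agent.Lib.Helper15.CTE

open Cfsg Cfsg.Agent.Lib.Helper15.Dade Cfsg.Agent.Lib.Helper82

universe u

/-- [FIN1] -/
theorem eq_center_of_index {H : Type*} [Group H] [Finite H] (χ : H → ℂ) (hχ : IsIrrCharacter H χ)
    (Z₀ : Subgroup H) (hZ : Z₀ ≤ Subgroup.center H) (hdeg : Z₀.index ≤ (charDegree χ) ^ 2) :
    Z₀ = Subgroup.center H ∧ (charDegree χ) ^ 2 = (Subgroup.center H).index := by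
  have h1 := isIrr_sq_degree_mul_card_center_le hχ
  have h2 : Nat.card Z₀ * Z₀.index = Nat.card H := Subgroup.card_mul_index Z₀
  have h3 : Nat.card (Subgroup.center H) * (Subgroup.center H).index = Nat.card H :=
    Subgroup.card_mul_index _
  have h4 : Nat.card Z₀ ≤ Nat.card (Subgroup.center H) :=
    Nat.le_of_dvd Nat.card_pos (Subgroup.card_dvd_of_le hZ)
  have hd : 0 < charDegree χ ^ 2 := pow_pos (isIrr_charDegree_pos hχ) 2
  have hz : 0 < Nat.card Z₀ := Nat.card_pos
  have hc : 0 < Nat.card (Subgroup.center H) := Nat.card_pos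
  have h5 : Nat.card (Subgroup.center H) ≤ Nat.card Z₀ := by
    by_contra hlt
    push Not at hlt
    have h6 : Nat.card Z₀ * Z₀.index ≤ Nat.card Z₀ * charDegree χ ^ 2 :=
      Nat.mul_le_mul_left _ hdeg
    have h7 : Nat.card Z₀ * charDegree χ ^ 2 < Nat.card (Subgroup.center H) * charDegree χ ^ 2 :=
      Nat.mul_lt_mul_of_pos_right hlt hd
    nlinarith
  have h8 : Z₀ = Subgroup.center H := Subgroup.eq_of_le_of_card_ge hZ h5
  refine ⟨h8, ?_⟩
  subst h8
  have h9 : charDegree χ ^ 2 * Nat.card (Subgroup.center H) ≤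
      (Subgroup.center H).index * Nat.card (Subgroup.center H) := by
    rw [mul_comm (Subgroup.center H).index, h3]
    exact h1
  exact le_antisymm (Nat.le_of_mul_le_mul_right h9 hc) hdeg

/-- [FIN2] -/
theorem card_center_dvd {H : Type*} [Group H] [Finite H] (χ : H → ℂ) (hχ : IsIrrCharacter H χ)
    (hf : ∀ h, χ h = χ 1 → h = 1) (m : ℕ) (hm : ∀ z ∈ Subgroup.center H, z ^ m = 1) :
    Nat.card (Subgroup.center H) ∣ m := by
  have h0 := isIrr_one_ne_zero hχ
  let f : Subgroup.center H →* ℂ :=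
    { toFun := fun z => χ z / χ 1
      map_one' := by
        simp only [Subgroup.coe_one]
        exact div_self h0
      map_mul' := by
        intro a b
        have := isIrr_central_mul hχ a.2 (b : H)
        simp only [Subgroup.coe_mul]
        field_simp
        linear_combination this }
  have hinj : Function.Injective f := by
    rw [injective_iff_map_eq_one]
    intro a ha
    have h1 : χ a / χ 1 = 1 := ha
    rw [div_eq_one_iff_eq h0] at h1
    exact Subtype.ext (hf _ h1)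
  have hcyc : IsCyclic (Subgroup.center H) := isCyclic_of_injective_ringHom f hinj
  obtain ⟨g, hg⟩ := hcyc.exists_generator
  rw [← orderOf_eq_card_of_forall_mem_zpowers hg]
  apply orderOf_dvd_of_pow_eq_one
  apply Subtype.ext
  simpa using hm g g.2

theorem sc_pow {H : Type*} [Group H] {χ : H → ℂ} {z : H} {ε : ℂ} (h : Sc χ z ε) (k : ℕ) :
    Sc χ (z ^ k) (ε ^ k) := by
  induction k with
  | zero => intro y; simp
  | succ k ih =>
    intro y
    rw [pow_succ, mul_assoc, ih, h, pow_succ, mul_assoc]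

/-- [FIN] -/
theorem fin {Q : Type u} [Group Q] [Finite Q] {m : ℕ} (h : CT Q m) :
    ∃ (H : Type u) (_ : Group H) (_ : Finite H) (χ : IrrCharacter H),
      (∀ h : H, (χ : H → ℂ) h = (χ : H → ℂ) 1 → h = 1) ∧
      (charDegree (χ : H → ℂ)) ^ 2 = (Subgroup.center H).index ∧
      (∃ f : Q →* H ⧸ Subgroup.center H, Function.Injective f) ∧
      (Subgroup.center H).index = Nat.card Q ∧
      Nat.card (Subgroup.center H) ∣ m ∧
      (∀ q : ℕ, q.Prime → q ∣ m → q ∣ Nat.card (Subgroup.center H)) := by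
  obtain ⟨H, _, _, π, χ, hπ, hχ, hdeg, hsc, hroot⟩ := h
  have hcl := class_of_irr hχ
  have h0 := isIrr_one_ne_zero hχ
  set K : Subgroup H := charKer χ (isIrr_isChar hχ) with hK
  obtain ⟨ψ, hψ, hψv⟩ := isIrr_deflate hχ K (fun x hx => hx)
  have hψ1 : ψ 1 = χ 1 := hψv 1
  have hfaith : ∀ y : H ⧸ K, ψ y = ψ 1 → y = 1 := by
    intro y
    induction y using QuotientGroup.induction_on with
    | H g =>
      intro hg
      rw [hψv, hψ1] at hg
      exact (QuotientGroup.eq_one_iff g).2 hg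
  -- elements acting as scalars with trivial scalar power
  have hone : ∀ (z : H) (ε : ℂ) (k : ℕ), Sc χ z ε → ε ^ k = 1 → ((z : H ⧸ K)) ^ k = 1 := by
    intro z ε k hz hk
    have h1 := sc_pow hz k 1
    rw [mul_one, hk, one_mul] at h1
    rw [← QuotientGroup.mk_pow]
    exact (QuotientGroup.eq_one_iff _).2 h1
  set Z₀ : Subgroup (H ⧸ K) := (π.ker).map (QuotientGroup.mk' K) with hZ₀
  have hZc : Z₀ ≤ Subgroup.center (H ⧸ K) := by
    rintro _ ⟨z, hz, rfl⟩
    obtain ⟨ε, -, hε⟩ := hsc z hz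
    rw [Subgroup.mem_center_iff]
    intro y
    induction y using QuotientGroup.induction_on with
    | H g =>
      change ((g * z : H) : H ⧸ K) = ((z * g : H) : H ⧸ K)
      rw [QuotientGroup.eq]
      change χ ((g * z)⁻¹ * (z * g)) = χ 1
      have h1 : (g * z)⁻¹ * (z * g) = z⁻¹ * ((g⁻¹ * z * g) * z⁻¹) * z := by group
      rw [h1, hcl, sc_conj hcl hε g, ← hε, mul_inv_cancel]
  have hdegψ : (charDegree ψ) ^ 2 = Nat.card Q := by
    have h1 : ((charDegree ψ : ℂ)) ^ 2 = (Nat.card Q : ℂ) := by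
      rw [← isChar_one_eq (isIrr_isChar hψ), hψ1, hdeg]
    exact_mod_cast h1
  have hkeridx : π.ker.index = Nat.card Q := by
    rw [Subgroup.index_ker, MonoidHom.range_eq_top.2 hπ, Subgroup.card_top]
  have hidx : Z₀.index ≤ (charDegree ψ) ^ 2 := by
    rw [hdegψ, hZ₀, ← hkeridx]
    exact Nat.le_of_dvd (Nat.pos_of_ne_zero Subgroup.index_ne_zero_of_finite)
      (Subgroup.index_map_dvd _ (QuotientGroup.mk'_surjective K))
  obtain ⟨hZeq, hsq⟩ := eq_center_of_index ψ hψ Z₀ hZc hidx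
  have hcidx : (Subgroup.center (H ⧸ K)).index = Nat.card Q := by rw [← hsq, hdegψ]
  refine ⟨H ⧸ K, inferInstance, inferInstance, ⟨ψ, hψ⟩, hfaith, hsq, ?_, hcidx, ?_, ?_⟩
  · let φ : H →* (H ⧸ K) ⧸ Subgroup.center (H ⧸ K) :=
      (QuotientGroup.mk' (Subgroup.center (H ⧸ K))).comp (QuotientGroup.mk' K)
    have hφ : π.ker ≤ φ.ker := by
      intro z hz
      rw [MonoidHom.mem_ker]
      change ((QuotientGroup.mk' K z : H ⧸ K) : (H ⧸ K) ⧸ Subgroup.center (H ⧸ K)) = 1
      rw [QuotientGroup.eq_one_iff, ← hZeq]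
      exact ⟨z, hz, rfl⟩
    let f : Q →* (H ⧸ K) ⧸ Subgroup.center (H ⧸ K) := π.liftOfSurjective hπ ⟨φ, hφ⟩
    have hfs : Function.Surjective f := by
      intro y
      obtain ⟨y', rfl⟩ := QuotientGroup.mk'_surjective _ y
      obtain ⟨g, rfl⟩ := QuotientGroup.mk'_surjective _ y'
      refine ⟨π g, ?_⟩
      exact MonoidHom.liftOfRightInverse_comp_apply _ _ _ ⟨φ, hφ⟩ g
    refine ⟨f, ?_⟩
    have hcard : Nat.card Q ≤ Nat.card ((H ⧸ K) ⧸ Subgroup.center (H ⧸ K)) := by
      rw [← hcidx]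
      exact le_of_eq rfl
    exact (hfs.bijective_of_nat_card_le hcard).1
  · apply card_center_dvd ψ hψ hfaith
    intro z hz
    rw [← hZeq] at hz
    obtain ⟨z₀, hz₀, rfl⟩ := hz
    obtain ⟨ε, hε1, hε2⟩ := hsc z₀ hz₀
    exact hone z₀ ε m hε2 hε1
  · intro q hq hqm
    obtain ⟨z, hz, ε, hε1, hε2, hε3⟩ := hroot q hq hqm
    have hzc : ((z : H ⧸ K)) ∈ Subgroup.center (H ⧸ K) := by
      rw [← hZeq]
      exact ⟨z, hz, rfl⟩
    have hne : ((z : H ⧸ K)) ≠ 1 := by
      intro h1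
      have h2 : χ z = χ 1 := (QuotientGroup.eq_one_iff z).1 h1
      have h3 := hε3 1
      rw [mul_one, h2] at h3
      apply hε1
      have h4 : (ε - 1) * χ 1 = 0 := by linear_combination -h3
      rcases mul_eq_zero.1 h4 with h5 | h5
      · linear_combination h5
      · exact absurd h5 h0
    have hord : orderOf ((z : H ⧸ K)) = q := by
      have : Fact q.Prime := ⟨hq⟩
      exact orderOf_eq_prime (hone z ε q hε3 hε2) hne
    have h6 : orderOf (⟨(z : H ⧸ K), hzc⟩ : Subgroup.center (H ⧸ K)) = q := by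
      rw [← hord]
      exact Subgroup.orderOf_mk _ _
    rw [← h6]
    exact orderOf_dvd_natCard _

end Cfsg.Agent.Lib.Helper15.CTE
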