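import Mathlib
import Cfsg.Prelude.Def_Characters
import Cfsg.Prelude.Def_Blocks
import Cfsg.Agent.Lib.Helper15.Dade.Defs

/-!
# Gagola: every finite solvable group embeds in a central-type factor group.  Definitions.
-/

set_option autoImplicit false

namespace Cfsg.Agent.Lib.Helper15.CTE

open Cfsg Cfsg.Agent.Lib.Helper15.Dade

universe u

/-- `z` acts on `χ` as the scalar `ε`. -/
def Sc {H : Type*} [Group H] (χ : H → ℂ) (z : H) (ε : ℂ) : Prop := ∀ h, χ (z * h) = ε * χ h

/-- `Q` is a central-type factor group, the scalars being `m`-th roots of unity. -/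
def CT (Q : Type u) [Group Q] (m : ℕ) : Prop :=
  ∃ (H : Type u) (_ : Group H) (_ : Finite H) (π : H →* Q) (χ : H → ℂ),
    Function.Surjective π ∧ IsIrrCharacter H χ ∧ (χ 1) ^ 2 = (Nat.card Q : ℂ) ∧
    (∀ z ∈ π.ker, ∃ ε : ℂ, ε ^ m = 1 ∧ Sc χ z ε) ∧
    (∀ q : ℕ, q.Prime → q ∣ m → ∃ z ∈ π.ker, ∃ ε : ℂ, ε ≠ 1 ∧ ε ^ q = 1 ∧ Sc χ z ε)

/-- the cyclic group of order `p` -/
abbrev P (p : ℕ) := Multiplicative (ZMod p)

/-- the additive coordinate -/
def lg {p : ℕ} (x : P p) : ZMod p := Multiplicative.toAdd x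

@[simp] theorem lg_one {p : ℕ} : lg (1 : P p) = 0 := rfl
@[simp] theorem lg_mul {p : ℕ} (x y : P p) : lg (x * y) = lg x + lg y := rfl
@[simp] theorem lg_inv {p : ℕ} (x : P p) : lg x⁻¹ = - lg x := rfl
@[simp] theorem lg_ofAdd {p : ℕ} (a : ZMod p) : lg (Multiplicative.ofAdd a) = a := rfl

/-- the twisted product character on the base group (as a function of the coordinates) -/
noncomputable def th0 {H : Type*} [Group H] (p : ℕ) [NeZero p] (χ : H → ℂ)
    (f : P p → H × P p) : ℂ :=
  (∏ i, χ (f i).1) * ZMod.stdAddChar (∑ i, lg i * lg (f i).2)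

/-- the twisted product character on the base group -/
noncomputable def th {H : Type*} [Group H] (p : ℕ) [NeZero p] (χ : H → ℂ) :
    ↥(base (H × P p) (P p)) → ℂ := fun b => th0 p χ b.1.left

/-- the induced character of the wreath product -/
noncomputable def ps {H : Type*} [Group H] (p : ℕ) [NeZero p]
    [Fintype (RegularWreathProduct (H × P p) (P p))] (χ : H → ℂ) :
    RegularWreathProduct (H × P p) (P p) → ℂ :=
  indFun (base (H × P p) (P p)) (th p χ)

/-- the projection of `(H × C_p) ≀ C_p` onto `(Q ≀ C_p) × C_p` -/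
def pi' {H Q : Type*} [Group H] [Group Q] (p : ℕ) [NeZero p] (π : H →* Q) :
    RegularWreathProduct (H × P p) (P p) →* RegularWreathProduct Q (P p) × P p where
  toFun w := (⟨fun i => π (w.left i).1, w.right⟩, ∏ i, (w.left i).2)
  map_one' := by
    apply Prod.ext
    · apply RegularWreathProduct.ext
      · funext i; simp
      · rfl
    · simp
  map_mul' a b := by
    apply Prod.ext
    · apply RegularWreathProduct.ext
      · funext i; simp
      · rfl
    · simp only [RegularWreathProduct.mul_left, Pi.mul_apply, Prod.snd_mul]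
      rw [Finset.prod_mul_distrib]
      congr 1
      exact Fintype.prod_equiv (Equiv.mulLeft a.right⁻¹) _ _ (fun i => rfl)

end Cfsg.Agent.Lib.Helper15.CTE
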