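import Cfsg.Agent.Lib.Helper15.CTE.C
import Cfsg.Agent.Lib.Helper15.CTE.D
import Cfsg.Agent.Lib.Helper16.DadeKK
import Cfsg.Agent.Lib.Helper15.Dade.Npi

set_option autoImplicit false

namespace Cfsg.Agent.Lib.Helper15.CTE

open Cfsg Cfsg.Agent.Lib.Helper15.Dade

universe u

theorem card_P (p : ℕ) [NeZero p] : Nat.card (P p) = p := by
  rw [Nat.card_eq_fintype_card, Fintype.card_multiplicative, ZMod.card]

theorem std_pow (p : ℕ) [NeZero p] (a : ZMod p) {n : ℕ} (hn : p ∣ n) :
    (ZMod.stdAddChar a : ℂ) ^ n = 1 := by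
  rw [← AddChar.map_nsmul_eq_pow]
  obtain ⟨k, rfl⟩ := hn
  have : (p * k) • a = 0 := by
    rw [nsmul_eq_mul]
    push_cast
    simp
  rw [this, AddChar.map_zero_eq_one]

theorem step {Q : Type u} [Group Q] [Finite Q] {m m' p : ℕ} [Fact p.Prime] (h : CT Q m)
    (hm : m ∣ m') (hp : p ∣ m') (hq : ∀ q : ℕ, q.Prime → q ∣ m' → q ∣ m ∨ q = p) :
    CT (RegularWreathProduct Q (P p) × P p) m' := by
  classical
  obtain ⟨H, _, _, π, χ, hπ, hχ, hdeg, hsc, hroot⟩ := h
  have : Fintype (RegularWreathProduct (H × P p) (P p)) := Fintype.ofFinite _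
  refine ⟨RegularWreathProduct (H × P p) (P p), inferInstance, inferInstance, pi' p π, ps p χ,
    pi'_surjective p π hπ, isIrr_ps p χ hχ, ?_, ?_, ?_⟩
  · rw [ps_one, Nat.card_prod, RegularWreathProduct.card, card_P, mul_pow, ← pow_mul, mul_comm p 2,
      pow_mul, hdeg]
    push_cast
    ring
  · intro z hz
    obtain ⟨h1, h2, h3⟩ := (mem_ker_pi' p π z).1 hz
    choose e he1 he2 using fun i => hsc _ (h2 i)
    refine ⟨(∏ i, e i) * ZMod.stdAddChar (∑ i, lg i * lg (z.left i).2), ?_, ?_⟩
    · rw [mul_pow, std_pow p _ hp, mul_one, ← Finset.prod_pow]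
      apply Finset.prod_eq_one
      intro i _
      obtain ⟨k, rfl⟩ := hm
      rw [pow_mul, he1, one_pow]
    · have hz' : z = ⟨z.left, 1⟩ := by
        apply RegularWreathProduct.ext
        · rfl
        · exact h1
      rw [hz']
      exact sc_ps p χ hχ z.left e he2 h3
  · intro q hqp hqd
    rcases hq q hqp hqd with h1 | rfl
    · obtain ⟨z₀, hz₀, ε₀, hε1, hε2, hε3⟩ := hroot q hqp h1
      obtain ⟨z, hz1, hz2, hz3, hz4⟩ := lift_root p χ hχ z₀ ε₀ hε3
      refine ⟨z, ?_, ε₀, hε1, hε2, hz4⟩
      rw [mem_ker_pi']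
      refine ⟨hz1, ?_, ?_⟩
      · intro i
        rcases hz2 i with h | h
        · rw [h]; exact Subgroup.one_mem _
        · rw [h]; exact hz₀
      · apply Finset.sum_eq_zero
        intro i _
        rw [hz3 i]
        rfl
    · obtain ⟨z, hz1, hz2, hz3, ε, hε1, hε2, hε3⟩ := exists_root q χ hχ
      refine ⟨z, ?_, ε, hε1, hε2, hε3⟩
      rw [mem_ker_pi']
      refine ⟨hz1, ?_, hz3⟩
      intro i
      rw [hz2 i]
      exact Subgroup.one_mem _

theorem main_aux (n : ℕ) : ∀ (G : Type u) [Group G] [Finite G], Nat.card G ≤ n →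
    Group.IsSolvable G →
    ∃ (Q : Type u) (_ : Group Q) (_ : Finite Q) (m : ℕ), CT Q m ∧ Squarefree m ∧
      (∀ q : ℕ, q.Prime → (q ∣ m ↔ q ∣ Nat.card G)) ∧
      (∀ q : ℕ, q.Prime → q ∣ Nat.card Q → q ∣ Nat.card G) ∧
      ∃ f : G →* Q, Function.Injective f := by
  induction n with
  | zero =>
    intro G _ _ hn _
    exact absurd hn (by have := Nat.card_pos (α := G); omega)
  | succ n ih =>
    intro G _ _ hn hsol
    by_cases hG : Subsingleton G
    · refine ⟨G, inferInstance, inferInstance, 1, ct_of_subsingleton G, squarefree_one, ?_, ?_,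
        MonoidHom.id G, Function.injective_id⟩
      · intro q hq
        rw [Nat.card_of_subsingleton (1 : G)]
      · intro q _ h
        exact h
    · have hnt : Nontrivial G := not_subsingleton_iff_nontrivial.1 hG
      obtain ⟨N, hN, hp⟩ := exists_normal_prime_index hsol
      have hcard := N.card_mul_index
      have hlt : Nat.card N ≤ n := by
        have h2 := hp.two_le
        have h3 : 0 < Nat.card N := Nat.card_pos
        nlinarith
      have hNsol : Group.IsSolvable N := inferInstance
      obtain ⟨D, _, _, m, hD, hsq, hm1, hm2, f, hf⟩ := ih N hlt hNsol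
      obtain ⟨F, hF⟩ := Cfsg.Agent.Lib.Helper16.Dade.exists_embedding N f hf
      set p := Nat.card (G ⧸ N) with hpdef
      have hpidx : N.index = p := Subgroup.index_eq_card N
      have hpp : p.Prime := hpidx ▸ hp
      have : Fact p.Prime := ⟨hpp⟩
      have hcyc : IsCyclic (G ⧸ N) := isCyclic_of_prime_card (p := p) rfl
      let e : G ⧸ N ≃* P p := (zmodCyclicMulEquiv hcyc).symm
      let E : RegularWreathProduct D (G ⧸ N) ≃* RegularWreathProduct D (P p) :=
        RegularWreathProduct.congr (MulEquiv.refl D) e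
      have hpG : p ∣ Nat.card G := ⟨Nat.card N, by rw [← hcard, hpidx, mul_comm]⟩
      have hNG : Nat.card N ∣ Nat.card G := ⟨p, by rw [← hcard, hpidx]⟩
      by_cases hpm : p ∣ m
      · refine ⟨RegularWreathProduct D (P p) × P p, inferInstance, inferInstance, m,
          step hD dvd_rfl hpm (fun q _ h => Or.inl h), hsq, ?_, ?_,
          (MonoidHom.inl _ _).comp (E.toMonoidHom.comp F), ?_⟩
        · intro q hq
          constructor
          · intro h
            exact ((hm1 q hq).1 h).trans hNG
          · intro h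
            rw [← hcard, hpidx] at h
            rcases (Nat.Prime.dvd_mul hq).1 h with h | h
            · exact (hm1 q hq).2 h
            · rw [(Nat.prime_dvd_prime_iff_eq hq hpp).1 h]; exact hpm
        · intro q hq h
          rw [Nat.card_prod, RegularWreathProduct.card, card_P] at h
          rcases (Nat.Prime.dvd_mul hq).1 h with h | h
          · rcases (Nat.Prime.dvd_mul hq).1 h with h | h
            · exact (hm2 q hq (hq.dvd_of_dvd_pow h)).trans hNG
            · exact h.trans hpG
          · exact h.trans hpG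
        · intro a b hab
          have h1 := congrArg Prod.fst hab
          exact hF (E.injective h1)
      · have hcop : Nat.Coprime m p := (Nat.Coprime.symm ((Nat.Prime.coprime_iff_not_dvd hpp).2 hpm))
        refine ⟨RegularWreathProduct D (P p) × P p, inferInstance, inferInstance, m * p,
          step hD (dvd_mul_right m p) (dvd_mul_left p m) ?_, ?_, ?_, ?_,
          (MonoidHom.inl _ _).comp (E.toMonoidHom.comp F), ?_⟩
        · intro q hq h
          rcases (Nat.Prime.dvd_mul hq).1 h with h | h
          · exact Or.inl h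
          · exact Or.inr ((Nat.prime_dvd_prime_iff_eq hq hpp).1 h)
        · exact (Nat.squarefree_mul hcop).2 ⟨hsq, hpp.prime.squarefree⟩
        · intro q hq
          constructor
          · intro h
            rcases (Nat.Prime.dvd_mul hq).1 h with h | h
            · exact ((hm1 q hq).1 h).trans hNG
            · exact h.trans hpG
          · intro h
            rw [← hcard, hpidx] at h
            rcases (Nat.Prime.dvd_mul hq).1 h with h | h
            · exact ((hm1 q hq).2 h).trans (dvd_mul_right m p)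
            · exact h.trans (dvd_mul_left p m)
        · intro q hq h
          rw [Nat.card_prod, RegularWreathProduct.card, card_P] at h
          rcases (Nat.Prime.dvd_mul hq).1 h with h | h
          · rcases (Nat.Prime.dvd_mul hq).1 h with h | h
            · exact (hm2 q hq (hq.dvd_of_dvd_pow h)).trans hNG
            · exact h.trans hpG
          · exact h.trans hpG
        · intro a b hab
          have h1 := congrArg Prod.fst hab
          exact hF (E.injective h1)

theorem main {G : Type u} [Group G] [Finite G] (hsolv : Group.IsSolvable G) :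
    ∃ (H : Type u) (_ : Group H) (_ : Finite H) (χ : Cfsg.IrrCharacter H),
      (∀ h : H, (χ : H → ℂ) h = (χ : H → ℂ) 1 → h = 1) ∧
      (Cfsg.charDegree (χ : H → ℂ)) ^ 2 = (Subgroup.center H).index ∧
      (∃ f : G →* H ⧸ Subgroup.center H, Function.Injective f) ∧
      (∀ p : ℕ, p.Prime → ((p ∣ Nat.card H ↔ p ∣ Nat.card G) ∧
        (p ∣ Nat.card (Subgroup.center H) ↔ p ∣ Nat.card G))) ∧
      Squarefree (Nat.card (Subgroup.center H)) := by
  obtain ⟨Q, _, _, m, hCT, hsq, hm1, hm2, f, hf⟩ := main_aux (Nat.card G) G le_rfl hsolv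
  obtain ⟨H, _, _, χ, h1, h2, ⟨g, hg⟩, h4, h5, h6⟩ := fin hCT
  refine ⟨H, inferInstance, inferInstance, χ, h1, h2, ⟨g.comp f, hg.comp hf⟩, ?_,
    hsq.squarefree_of_dvd h5⟩
  intro p hp
  have hc : p ∣ Nat.card (Subgroup.center H) ↔ p ∣ Nat.card G :=
    ⟨fun h => (hm1 p hp).1 (h.trans h5), fun h => h6 p hp ((hm1 p hp).2 h)⟩
  refine ⟨⟨fun h => ?_, fun h => ?_⟩, hc⟩
  · rw [← (Subgroup.center H).card_mul_index, h4] at h
    rcases (Nat.Prime.dvd_mul hp).1 h with h | h
    · exact hc.1 h
    · exact hm2 p hp h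
  · exact (hc.2 h).trans (Subgroup.card_subgroup_dvd_card _)

end Cfsg.Agent.Lib.Helper15.CTE
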